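import Cfsg.Agent.Phan.Main

/-!
# Subgroups `SU(2, q²)` of `SU(3, q²)`
-/

set_option autoImplicit false
set_option linter.unusedSectionVars false

namespace Cfsg.Agent.Phan

open Cfsg.Agent.Uni Module Matrix

variable {F : Type*} [Field F] [Fintype F] {q : ℕ}

/-- `SU_2(q)` has no nontrivial homomorphism to a commutative group, `q ≥ 4`. -/
theorem SU2_hom_trivial (hF : Fintype.card F = q ^ 2) (hq : 4 ≤ q) {M : Type*} [CommGroup M]
    (χ : SU 2 F q →* M) (x : SU 2 F q) : χ x = 1 := by
  classical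
  obtain ⟨S, P, Q, φ, -, -, -, hS⟩ := exists_iso_SL2 hF
  obtain ⟨c, hc, hcS⟩ := exists_fixed_ne hF ({0, 1, -1} : Finset F)
    (lt_of_le_of_lt Finset.card_le_three (by omega))
  simp only [Finset.mem_insert, Finset.mem_singleton, not_or] at hcS
  have h1 : commutator (Matrix.SpecialLinearGroup (Fin 2) S) = ⊤ := by
    refine Matrix.SL2.commutator_eq_top (a := (⟨c, (hS c).2 hc⟩ : S)) ?_ ?_
    · intro h
      exact hcS.1 (congrArg Subtype.val h)
    · intro h
      have h2 : c ^ 2 = 1 := congrArg Subtype.val h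
      have h3 : (c - 1) * (c + 1) = 0 := by linear_combination h2
      rcases mul_eq_zero.1 h3 with h | h
      · exact hcS.2.1 (sub_eq_zero.1 h)
      · exact hcS.2.2 (eq_neg_of_add_eq_zero_left h)
  have h2 := Abelianization.commutator_subset_ker (χ.comp φ.toMonoidHom)
  have h3 : φ.symm x ∈ commutator (Matrix.SpecialLinearGroup (Fin 2) S) := by rw [h1]; trivial
  have h4 := h2 h3
  rw [MonoidHom.mem_ker, MonoidHom.comp_apply] at h4
  simpa using h4

/-- stabiliser of a vector -/
def St (a : Fin 3 → F) : Subgroup (SU 3 F q) where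
  carrier := {g | act g a = a}
  mul_mem' {g h} hg hh := by
    change act (g * h) a = a
    rw [act_mul, show act h a = a from hh, show act g a = a from hg]
  one_mem' := act_one a
  inv_mem' {g} hg := by
    change act g⁻¹ a = a
    conv_lhs => rw [← show act g a = a from hg]
    rw [act_inv_act]

theorem mem_St {a : Fin 3 → F} {g : SU 3 F q} : g ∈ St a ↔ act g a = a := Iff.rfl

/-- moving orthonormal pairs to the standard one -/
theorem exists_move2 (hF : Fintype.card F = q ^ 2) {a b : Fin 3 → F}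
    (ha : hermForm 3 F q a a = 1) (hb : hermForm 3 F q b b = 1) (hab : hermForm 3 F q a b = 0)
    (i j k : Fin 3) (hij : i ≠ j) (hki : k ≠ i) (hkj : k ≠ j) :
    ∃ g : SU 3 F q, act g (ee F i) = a ∧ act g (ee F j) = b := by
  obtain ⟨g, -, h1, h2⟩ := exists_HH2 hF (S := Finset.univ) (Finset.mem_univ i) (Finset.mem_univ j)
    hij (Finset.mem_univ k) hki hkj (v := a) (w := b) ⟨fun l hl => absurd (Finset.mem_univ l) hl, ha⟩
    ⟨fun l hl => absurd (Finset.mem_univ l) hl, hb⟩ hab
  exact ⟨g, h1, h2⟩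

theorem exists_move1 (hF : Fintype.card F = q ^ 2) {a : Fin 3 → F}
    (ha : hermForm 3 F q a a = 1) (i k : Fin 3) (hki : k ≠ i) :
    ∃ g : SU 3 F q, act g (ee F i) = a := by
  obtain ⟨g, -, h1⟩ := exists_HH1 hF (S := Finset.univ) (Finset.mem_univ i)
    (Finset.mem_univ k) hki (v := a) ⟨fun l hl => absurd (Finset.mem_univ l) hl, ha⟩
  exact ⟨g, h1⟩

/-- An element fixing an orthonormal pair is trivial. -/
theorem eq_one_of_fix2 (hF : Fintype.card F = q ^ 2) {a b : Fin 3 → F}
    (ha : hermForm 3 F q a a = 1) (hb : hermForm 3 F q b b = 1) (hab : hermForm 3 F q a b = 0)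
    {g : SU 3 F q} (hga : act g a = a) (hgb : act g b = b) : g = 1 := by
  obtain ⟨k, hk0, hk1⟩ := exists_move2 hF ha hb hab 0 1 2 (by decide) (by decide) (by decide)
  have h1 : k⁻¹ * g * k ∈ HH F q ({2} : Finset (Fin 3)) := by
    intro i hi
    rw [Finset.mem_singleton] at hi
    rw [act_mul, act_mul]
    fin_cases i
    · change act k⁻¹ (act g (act k (ee F 0))) = ee F 0
      rw [hk0, hga, ← hk0, act_inv_act]
    · change act k⁻¹ (act g (act k (ee F 1))) = ee F 1
      rw [hk1, hgb, ← hk1, act_inv_act]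
    · exact absurd rfl hi
  have h2 := HH_singleton hF h1
  have h3 : g = k * (k⁻¹ * g * k) * k⁻¹ := by group
  rw [h3, h2]; group

theorem HH_conj_St (_hF : Fintype.card F = q ^ 2) {a : Fin 3 → F} {i : Fin 3} {g : SU 3 F q}
    (hg : act g (ee F i) = a) {S : Finset (Fin 3)} (hS : ∀ k, k ∉ S ↔ k = i) (x : SU 3 F q) :
    x ∈ HH F q S ↔ g * x * g⁻¹ ∈ St a := by
  rw [mem_St, act_mul, act_mul, ← hg, act_inv_act, act_inj]
  constructor
  · intro h; exact h i ((hS i).2 rfl)
  · intro h k hk
    rw [(hS k).1 hk]; exact h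

theorem card_St (hF : Fintype.card F = q ^ 2) {a : Fin 3 → F}
    (ha : hermForm 3 F q a a = 1) : Nat.card (St (q := q) a) = Nat.card (SU 2 F q) := by
  obtain ⟨g, hg⟩ := exists_move1 hF ha 2 0 (by decide)
  have hS : ∀ k : Fin 3, k ∉ iv 3 0 2 ↔ k = 2 := by
    intro k
    rw [mem_iv]
    fin_cases k <;> simp
  have h1 : Nat.card (HH F q (iv 3 0 2)) = Nat.card (SU 2 F q) :=
    Nat.card_congr (kap (i := 0) (m := 2) (n := 3) (by omega) hF).toEquiv
  rw [← h1]
  refine Nat.card_congr ⟨fun x => ⟨g⁻¹ * x * g, ?_⟩, fun x => ⟨g * x * g⁻¹, ?_⟩, ?_, ?_⟩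
  · rw [HH_conj_St hF hg hS]
    have : g * (g⁻¹ * (x : SU 3 F q) * g) * g⁻¹ = x := by group
    rw [this]
    exact x.2
  · exact (HH_conj_St hF hg hS _).1 x.2
  · intro x
    apply Subtype.ext
    change g * (g⁻¹ * (x : SU 3 F q) * g) * g⁻¹ = x
    group
  · intro x
    apply Subtype.ext
    change g⁻¹ * (g * (x : SU 3 F q) * g⁻¹) * g = x
    group

/-- Two orthogonal isotropic vectors of a three dimensional space are proportional. -/
theorem iso_prop3 (hF : Fintype.card F = q ^ 2) {r r' : Fin 3 → F} (hr0 : r ≠ 0)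
    (hrr : hermForm 3 F q r r = 0) (hrr' : hermForm 3 F q r' r' = 0)
    (hor : hermForm 3 F q r' r = 0) : ∃ c : F, r' = c • r := by
  have hfin : finrank F (⊤ : Submodule F (Fin 3 → F)) = 3 := by simp
  obtain ⟨e, he, her, her'⟩ := exists_un_iso_perp hF (nd_top (n := 3) hF) hfin
    (Submodule.mem_top (x := r)) (Submodule.mem_top (x := r')) hr0 hrr hrr' hor
  have h1 := finrank_pp hF he
  exact iso_perp_two hF (nd_pp hF (nd_top hF) he) (by omega)
    ((mem_pp hF).2 ⟨Submodule.mem_top, form_comm hF her⟩)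
    ((mem_pp hF).2 ⟨Submodule.mem_top, form_comm hF her'⟩) hr0 hrr hor

/-- Fixed vectors of an element of order dividing `q + 1` fixing a unit vector. -/
theorem fix_prop (hF : Fintype.card F = q ^ 2) {a b : Fin 3 → F}
    (ha : hermForm 3 F q a a = 1) {d : SU 3 F q} (hd : d ^ (q + 1) = 1) (hd1 : d ≠ 1)
    (hda : act d a = a) (hdb : act d b = b) : ∃ c : F, b = c • a := by
  have haU : Un q ⊤ a := ⟨Submodule.mem_top, ha⟩
  have hb' := sub_mem_pp hF haU (Submodule.mem_top (x := b))
  obtain ⟨b', hb'def⟩ : ∃ b', b' = b - hermForm 3 F q b a • a := ⟨_, rfl⟩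
  rw [← hb'def] at hb'
  have hdb' : act d b' = b' := by rw [hb'def, act_sub, act_smul, hda, hdb]
  have hb'a := ((mem_pp hF).1 hb').2
  by_cases h0 : b' = 0
  · refine ⟨hermForm 3 F q b a, ?_⟩
    rw [hb'def] at h0
    exact sub_eq_zero.1 h0
  exfalso
  apply hd1
  have hND := nd_pp hF (nd_top (n := 3) hF) haU
  have hfin : finrank F (pp q ⊤ a) = 2 := by
    have := finrank_pp hF haU
    have hfin : finrank F (⊤ : Submodule F (Fin 3 → F)) = 3 := by simp
    omega
  by_cases h1 : hermForm 3 F q b' b' = 0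
  · obtain ⟨s, hs, hbs⟩ := exists_hypW hF hND hb' h0 h1
    have hsa := ((mem_pp hF).1 hs).2
    -- the image of `s`
    have hds : act d s ∈ pp q ⊤ a := by
      refine (mem_pp hF).2 ⟨Submodule.mem_top, ?_⟩
      rw [← hda, act_form, hsa]
    have hbs' := (hbs.symm hF).2.2
    have h2 : hermForm 3 F q (act d s - s) b' = 0 := by
      rw [hermForm_sub_left, hbs']
      nth_rewrite 1 [← hdb']
      rw [act_form, hbs', sub_self]
    obtain ⟨α, hα⟩ := iso_perp_two hF hND hfin hb'
      ((pp q ⊤ a).sub_mem hds hs) h0 h1 h2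
    have hds' : act d s = s + α • b' := by rw [← hα]; abel
    have hpow : ∀ k : ℕ, act (d ^ k) s = s + ((k : F) * α) • b' := by
      intro k
      induction k with
      | zero => rw [pow_zero, act_one]; simp
      | succ k ih =>
        rw [pow_succ', act_mul, ih, act_add, act_smul, hdb', hds']
        push_cast
        rw [add_mul, one_mul, add_smul]
        abel
    have h3 := hpow (q + 1)
    rw [hd, act_one] at h3
    have hq0 : (q : F) = 0 := by
      have := FiniteField.cast_card_eq_zero F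
      rw [hF, Nat.cast_pow] at this
      exact pow_eq_zero_iff (by norm_num) |>.1 this
    have h4 : α • b' = 0 := by
      have h5 : ((((q + 1 : ℕ) : F)) * α) • b' = 0 := by
        have := h3.symm
        rwa [add_eq_left] at this
      rw [Nat.cast_add, hq0, Nat.cast_one, zero_add, one_mul] at h5
      exact h5
    rw [h4, add_zero] at hds'
    -- `d` fixes `a`, `b'`, `s`
    obtain ⟨e, he⟩ := exists_un hF hND (by omega)
    have hde : act d e = e := by
      have h5 : e - hermForm 3 F q e s • b' - hermForm 3 F q e b' • s ∈ pp2 q (pp q ⊤ a) b' s := by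
        refine (mem_pp2 hF).2 ⟨Submodule.sub_mem _ (Submodule.sub_mem _ he.1
          (Submodule.smul_mem _ _ hb')) (Submodule.smul_mem _ _ hs), ?_, ?_⟩
        · rw [hermForm_sub_left, hermForm_sub_left, hermForm_smul_left, hermForm_smul_left, h1,
            hbs']; ring
        · rw [hermForm_sub_left, hermForm_sub_left, hermForm_smul_left, hermForm_smul_left,
            hbs.2.2, hbs.2.1]; ring
      have h6 := finrank_pp2 hF hb' hs hbs
      have h7 : pp2 q (pp q ⊤ a) b' s = ⊥ := Submodule.finrank_eq_zero.1 (by omega)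
      rw [h7, Submodule.mem_bot] at h5
      have h8 : e = hermForm 3 F q e s • b' + hermForm 3 F q e b' • s := by
        rw [sub_sub] at h5
        exact sub_eq_zero.1 h5
      rw [h8, act_add, act_smul, act_smul, hdb', hds']
    exact eq_one_of_fix2 hF ha he.2 (form_comm hF ((mem_pp hF).1 he.1).2) hda hde
  · obtain ⟨c, hc, hcb⟩ := exists_scale hF hb' h1
    refine eq_one_of_fix2 hF ha hcb.2 ?_ hda (by rw [act_smul, hdb'])
    rw [hermForm_smul_right, form_comm hF hb'a, mul_zero]

/-- A subgroup isomorphic to `SU_2` fixes a unit vector: odd characteristic. -/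
theorem exists_fix_odd (hF : Fintype.card F = q ^ 2) (hq : 4 ≤ q) (h2 : (2 : F) ≠ 0)
    (e : SU 2 F q →* SU 3 F q) (he : Function.Injective e) :
    ∃ a, hermForm 3 F q a a = 1 ∧ ∀ x, act (e x) a = a := by
  -- the central involution
  obtain ⟨z0, hz0⟩ : ∃ z0 : SU 2 F q, mt z0 = -1 := by
    refine ⟨mkSU (-1) ?_ ?_, rfl⟩
    · intro u v
      rw [Matrix.neg_mulVec, Matrix.neg_mulVec, Matrix.one_mulVec, Matrix.one_mulVec,
        hermForm_neg_left, hermForm_neg_right hF, neg_neg]
    · rw [Matrix.det_neg, Matrix.det_one]; simp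
  have hz0c : ∀ x, z0 * x = x * z0 := by
    intro x
    apply mt_ext
    rw [mt_mul, mt_mul, hz0]; simp
  have hz02 : z0 * z0 = 1 := by
    apply mt_ext
    rw [mt_mul, hz0, mt_one]; simp
  have hz01 : z0 ≠ 1 := by
    intro h
    have h3 := congrArg (fun g : SU 2 F q => mt g 0 0) h
    simp only [hz0, mt_one] at h3
    apply h2
    have h4 : (-1 : F) = 1 := by simpa using h3
    linear_combination -h4
  obtain ⟨z, hz⟩ : ∃ z, z = e z0 := ⟨_, rfl⟩
  have hzz : ∀ v, act z (act z v) = v := by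
    intro v
    rw [← act_mul, hz, ← map_mul, hz02, map_one, act_one]
  have hz1 : z ≠ 1 := by
    intro h
    apply hz01
    apply he
    rw [← hz, h, map_one]
  have hzc : ∀ x v, act z (act (e x) v) = act (e x) (act z v) := by
    intro x v
    rw [← act_mul, ← act_mul, hz, ← map_mul, ← map_mul, hz0c]
  -- the fixed space
  obtain ⟨E, hE⟩ : ∃ E : Submodule F (Fin 3 → F), ∀ v, v ∈ E ↔ act z v = v := by
    refine ⟨{ carrier := {v | act z v = v}, add_mem' := ?_, zero_mem' := act_zero z,
              smul_mem' := ?_ }, fun v => Iff.rfl⟩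
    · intro v w hv hw
      change act z (v + w) = v + w
      rw [act_add, show act z v = v from hv, show act z w = w from hw]
    · intro c v hv
      change act z (c • v) = c • v
      rw [act_smul, show act z v = v from hv]
  have hsym : ∀ v, v + act z v ∈ E := by
    intro v
    rw [hE, act_add, hzz, add_comm]
  have hEnd : ∀ w ∈ E, w ≠ 0 → ∃ y ∈ E, hermForm 3 F q w y ≠ 0 := by
    intro w hw hw0
    obtain ⟨y, hy⟩ := exists_form_ne hF hw0
    refine ⟨y + act z y, hsym y, ?_⟩
    have h3 : hermForm 3 F q w (act z y) = hermForm 3 F q w y := by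
      conv_lhs => rw [← (hE w).1 hw]
      rw [act_form]
    rw [hermForm_add_right hF, h3]
    intro h4
    have h5 : (2 : F) * hermForm 3 F q w y = 0 := by linear_combination h4
    rcases mul_eq_zero.1 h5 with h | h
    · exact h2 h
    · exact hy h
  have hEne : ∃ w ∈ E, w ≠ 0 := by
    by_contra hcon
    push Not at hcon
    have h3 : ∀ v, act z v = -v := by
      intro v
      have := hcon _ (hsym v)
      exact eq_neg_of_add_eq_zero_right this
    have h4 : mt z = -1 := by
      ext k l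
      rw [← act_ee, h3]
      change -(Pi.single l (1 : F) : Fin 3 → F) k = _
      rw [Pi.single_apply, Matrix.neg_apply, Matrix.one_apply]
    have h5 : (mt z).det = 1 := z.1.2
    rw [h4, Matrix.det_neg, Matrix.det_one] at h5
    apply h2
    have h6 : (-1 : F) ^ 3 = 1 := by simpa using h5
    linear_combination -h6
  obtain ⟨w, hw, hw0⟩ := hEne
  obtain ⟨y, hy, hwy⟩ := hEnd w hw hw0
  obtain ⟨a, haE, ha⟩ := exists_unit_mem hF E hw hy hwy
  have haz : act z a = a := (hE a).1 haE
  -- the fixed space is one dimensional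
  have huniq : ∀ x ∈ E, hermForm 3 F q x a = 0 → x = 0 := by
    intro x hx hxa
    by_contra hx0
    obtain ⟨y, hy, hxy⟩ := hEnd x hx hx0
    -- inside the perp of `a`
    have hy' : y - hermForm 3 F q y a • a ∈ E := E.sub_mem hy (E.smul_mem _ haE)
    obtain ⟨E', hE'⟩ : ∃ E' : Submodule F (Fin 3 → F), E' = E ⊓ perp q (Submodule.span F {a}) :=
      ⟨_, rfl⟩
    have hmem : ∀ v, v ∈ E' ↔ v ∈ E ∧ hermForm 3 F q v a = 0 := by
      intro v
      rw [hE', Submodule.mem_inf, mem_perp_span hF]
      simp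
    obtain ⟨b, hbE', hb⟩ := exists_unit_mem hF E' ((hmem x).2 ⟨hx, hxa⟩)
      ((hmem _).2 ⟨hy', by rw [hermForm_sub_left, hermForm_smul_left, ha]; ring⟩) (by
        rw [hermForm_sub_right hF, hermForm_smul_right, hxa, mul_zero, sub_zero]
        exact hxy)
    have hb' := (hmem b).1 hbE'
    exact hz1 (eq_one_of_fix2 hF ha hb (form_comm hF hb'.2) haz ((hE b).1 hb'.1))
  -- the character
  have hchar : ∀ x, act (e x) a = hermForm 3 F q (act (e x) a) a • a := by
    intro x
    have h3 : act (e x) a ∈ E := by rw [hE, hzc, haz]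
    have h4 := huniq (act (e x) a - hermForm 3 F q (act (e x) a) a • a)
      (E.sub_mem h3 (E.smul_mem _ haE)) (by
        rw [hermForm_sub_left, hermForm_smul_left, ha]; ring)
    exact sub_eq_zero.1 h4
  let χ : SU 2 F q →* F :=
    { toFun := fun x => hermForm 3 F q (act (e x) a) a
      map_one' := by rw [map_one, act_one, ha]
      map_mul' := fun x y => by
        rw [map_mul, act_mul, hchar y, act_smul, hermForm_smul_left, hermForm_smul_left, ha,
          mul_one, mul_comm] }
  refine ⟨a, ha, fun x => ?_⟩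
  have h5 := SU2_hom_trivial hF hq χ.toHomUnits x
  have h6 : hermForm 3 F q (act (e x) a) a = 1 := by
    have := congrArg (fun u : Fˣ => (u : F)) h5
    exact this
  rw [hchar, h6, one_smul]

/-- Involutions in characteristic two. -/
theorem involution_center (hF : Fintype.card F = q ^ 2) (h2 : (2 : F) = 0) {t : SU 3 F q}
    (ht : t * t = 1) (ht1 : t ≠ 1) :
    ∃ u : Fin 3 → F, u ≠ 0 ∧ hermForm 3 F q u u = 0 ∧
      (∀ x, hermForm 3 F q x u = 0 → act t x = x) ∧
      (∀ x, act t x = x → hermForm 3 F q x u = 0) ∧ ∀ x, ∃ c : F, act t x = x + c • u := by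
  have htt : ∀ x, act t (act t x) = x := by intro x; rw [← act_mul, ht, act_one]
  have hsymm : ∀ x y, hermForm 3 F q (act t x) y = hermForm 3 F q x (act t y) := by
    intro x y
    rw [← act_form t (act t x) y, htt]
  obtain ⟨v, hv⟩ : ∃ v, act t v ≠ v := by
    by_contra hcon
    push Not at hcon
    exact ht1 (act_ext (fun x => by rw [hcon, act_one]))
  obtain ⟨u, hu⟩ : ∃ u, u = act t v - v := ⟨_, rfl⟩
  have hu0 : u ≠ 0 := by rw [hu]; exact sub_ne_zero.2 hv
  have hiso : ∀ x y, hermForm 3 F q (act t x - x) (act t y - y) = 0 := by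
    intro x y
    rw [hermForm_sub_left, hermForm_sub_right hF, hermForm_sub_right hF, act_form, hsymm]
    linear_combination (hermForm 3 F q x y - hermForm 3 F q x (act t y)) * h2
  have huu : hermForm 3 F q u u = 0 := by rw [hu]; exact hiso v v
  have hN : ∀ x, ∃ c : F, act t x - x = c • u := fun x =>
    iso_prop3 hF hu0 huu (hiso x x) (by rw [hu]; exact hiso x v)
  refine ⟨u, hu0, huu, ?_, ?_, ?_⟩
  · intro x hx
    obtain ⟨c, hc⟩ := hN x
    have h3 : ∀ y, hermForm 3 F q (c • u) y = 0 := by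
      intro y
      obtain ⟨c', hc'⟩ := hN y
      have h4 : hermForm 3 F q (act t x - x) y + hermForm 3 F q x (act t y - y) +
          hermForm 3 F q (act t x - x) (act t y - y) = 0 := by
        rw [hermForm_sub_left, hermForm_sub_left, hermForm_sub_right hF, hermForm_sub_right hF,
          act_form]
        ring
      rw [hiso, hc, hc', hermForm_smul_right, hx] at h4
      linear_combination h4
    have h4 := hermForm_nondeg hF h3
    rw [h4] at hc
    exact sub_eq_zero.1 hc
  · intro x hx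
    rw [hu, hermForm_sub_right hF]
    nth_rewrite 1 [← hx]
    rw [act_form, sub_self]
  · intro x
    obtain ⟨c, hc⟩ := hN x
    exact ⟨c, by rw [← hc]; abel⟩

/-- A root subgroup has a common centre. -/
theorem root_center (hF : Fintype.card F = q ^ 2) (h2 : (2 : F) = 0) {S : Subfield F}
    (f : Matrix.SpecialLinearGroup (Fin 2) S →* SU 3 F q) (hf : Function.Injective f)
    {i j : Fin 2} (hij : i ≠ j) :
    ∃ u : Fin 3 → F, u ≠ 0 ∧ hermForm 3 F q u u = 0 ∧
      (∀ (c : S) x, hermForm 3 F q x u = 0 →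
        act (f (Matrix.SpecialLinearGroup.transvection hij c)) x = x) ∧
      ∀ x, ∃ c : F, act (f (Matrix.SpecialLinearGroup.transvection hij 1)) x = x + c • u := by
  have h2S : (2 : S) = 0 := by
      have h : ((2 : S) : F) = ((0 : S) : F) := h2
      exact Subtype.ext h
  have hinv : ∀ c : S, f (Matrix.SpecialLinearGroup.transvection hij c) *
      f (Matrix.SpecialLinearGroup.transvection hij c) = 1 := by
    intro c
    rw [← map_mul, ← Matrix.SpecialLinearGroup.transvection_add]
    have : c + c = 0 := by linear_combination c * h2S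
    rw [this, Matrix.SpecialLinearGroup.transvection_coeff_zero, map_one]
  have hne : ∀ c : S, c ≠ 0 → f (Matrix.SpecialLinearGroup.transvection hij c) ≠ 1 := by
    intro c hc h
    have h3 : Matrix.SpecialLinearGroup.transvection hij c = 1 := hf (by rw [h, map_one])
    have h4 := (Matrix.SpecialLinearGroup.transvection_mem_center_iff hij c).1 (by
      rw [h3]; exact one_mem _)
    exact hc h4
  obtain ⟨u, hu0, huu, h3, h4, h5⟩ := involution_center hF h2 (hinv 1) (hne 1 one_ne_zero)
  refine ⟨u, hu0, huu, ?_, h5⟩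
  intro c x hx
  by_cases hc : c = 0
  · rw [hc, Matrix.SpecialLinearGroup.transvection_coeff_zero, map_one, act_one]
  obtain ⟨T, hT⟩ : ∃ T, T = f (Matrix.SpecialLinearGroup.transvection hij c) := ⟨_, rfl⟩
  obtain ⟨t, ht⟩ : ∃ t, t = f (Matrix.SpecialLinearGroup.transvection hij 1) := ⟨_, rfl⟩
  obtain ⟨w, hw0, hww, h3', h4', -⟩ := involution_center hF h2 (hinv c) (hne c hc)
  rw [← hT] at h3' h4' ⊢
  rw [← ht] at h3 h4
  have hcomm : ∀ x, act t (act T x) = act T (act t x) := by
    intro x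
    rw [← act_mul, ← act_mul, hT, ht, ← map_mul, ← map_mul,
      ← Matrix.SpecialLinearGroup.transvection_add, ← Matrix.SpecialLinearGroup.transvection_add,
      add_comm]
  have hTT : ∀ x, act T (act T x) = x := by
    intro x; rw [← act_mul, hT, hinv, act_one]
  have hsymm : ∀ x y, hermForm 3 F q (act T x) y = hermForm 3 F q x (act T y) := by
    intro x y
    rw [← act_form T (act T x) y, hTT]
  -- `T u` is proportional to `u`
  have h6 : ∀ x, hermForm 3 F q x u = 0 → hermForm 3 F q (act T x) u = 0 := by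
    intro x hx
    apply h4
    rw [hcomm, h3 x hx]
  obtain ⟨γ, hγ⟩ := iso_prop3 hF hu0 huu (r' := act T u) (by rw [act_form]; exact huu) (h6 u huu)
  have hγ2 : γ * γ = 1 := by
    have h7 := hTT u
    rw [hγ, act_smul, hγ, smul_smul] at h7
    by_contra hcon
    have h8 : (γ * γ - 1) • u = 0 := by rw [sub_smul, h7, one_smul, sub_self]
    rcases smul_eq_zero.1 h8 with h | h
    · exact hcon (sub_eq_zero.1 h)
    · exact hu0 h
  have hγ1 : γ = 1 := by
    have h7 : (γ - 1) * (γ - 1) = 0 := by linear_combination hγ2 + (1 - γ) * h2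
    exact sub_eq_zero.1 (mul_self_eq_zero.1 h7)
  have hTu : act T u = u := by rw [hγ, hγ1, one_smul]
  obtain ⟨κ, hκ⟩ := iso_prop3 hF hu0 huu hww (form_comm hF (h4' u hTu))
  apply h3'
  rw [hκ, hermForm_smul_right, hx, mul_zero]

/-- A subgroup isomorphic to `SU_2` fixes a unit vector: characteristic two. -/
theorem exists_fix_even (hF : Fintype.card F = q ^ 2) (h2 : (2 : F) = 0)
    (e : SU 2 F q →* SU 3 F q) (he : Function.Injective e) :
    ∃ a, hermForm 3 F q a a = 1 ∧ ∀ x, act (e x) a = a := by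
  obtain ⟨S, P, Q, φ, -, -, -, hS⟩ := exists_iso_SL2 hF
  obtain ⟨f, hf⟩ : ∃ f, f = e.comp φ.toMonoidHom := ⟨_, rfl⟩
  have hfi : Function.Injective f := by
    rw [hf]; exact he.comp φ.injective
  obtain ⟨u, hu0, huu, hu1, hu2⟩ := root_center hF h2 f hfi (i := 0) (j := 1) zero_ne_one
  obtain ⟨w, hw0, hww, hw1, hw2⟩ := root_center hF h2 f hfi (i := 1) (j := 0) one_ne_zero
  -- the centres are not orthogonal
  have huw : hermForm 3 F q u w ≠ 0 := by
    intro h
    obtain ⟨κ, hκ⟩ := iso_prop3 hF hu0 huu hww (form_comm hF h)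
    have hcomm : f (Matrix.SpecialLinearGroup.transvection (i := (0 : Fin 2)) (j := 1) zero_ne_one 1) *
        f (Matrix.SpecialLinearGroup.transvection (i := (1 : Fin 2)) (j := 0) one_ne_zero 1) =
        f (Matrix.SpecialLinearGroup.transvection (i := (1 : Fin 2)) (j := 0) one_ne_zero 1) *
        f (Matrix.SpecialLinearGroup.transvection (i := (0 : Fin 2)) (j := 1) zero_ne_one 1) := by
      apply act_ext
      intro x
      obtain ⟨c1, hc1⟩ := hu2 x
      obtain ⟨c2, hc2⟩ := hw2 x
      rw [act_mul, act_mul, hc1, hc2, act_add, act_add, act_smul, act_smul, hc1, hc2,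
        hw1 1 u h, hu1 1 w (by rw [hκ, hermForm_smul_left, huu, mul_zero]), hκ]
      abel
    rw [← map_mul, ← map_mul] at hcomm
    have h3 := congrArg (fun g : Matrix.SpecialLinearGroup (Fin 2) S => g.1 0 0) (hfi hcomm)
    have h2S : (2 : S) = 0 := by
      have h : ((2 : S) : F) = ((0 : S) : F) := h2
      exact Subtype.ext h
    simp [Matrix.SpecialLinearGroup.coe_mul, Matrix.SpecialLinearGroup.transvection_coe,
      Matrix.mul_apply, Fin.sum_univ_two] at h3
  obtain ⟨c, d, hc, h3, h4⟩ := exists_hyp hF huu huw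
  have hyp : Hyp q u (c • w + d • u) := ⟨huu, h3, h4⟩
  have h5 := finrank_pp2 hF (Submodule.mem_top (x := u)) (Submodule.mem_top (x := c • w + d • u))
    hyp
  have hfin : finrank F (⊤ : Submodule F (Fin 3 → F)) = 3 := by simp
  obtain ⟨a, ha⟩ := exists_un hF (nd_pp2 hF (nd_top (n := 3) hF) (Submodule.mem_top (x := u))
    (Submodule.mem_top (x := c • w + d • u)) hyp) (by omega)
  obtain ⟨-, hau, haw⟩ := (mem_pp2 hF).1 ha.1
  have haw' : hermForm 3 F q a w = 0 := by
    rw [hermForm_add_right hF, hermForm_smul_right, hermForm_smul_right, hau, mul_zero,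
      add_zero] at haw
    exact (mul_eq_zero.1 haw).resolve_left (pow_ne_zero _ hc)
  refine ⟨a, ha.2, ?_⟩
  have hall : ∀ A : Matrix.SpecialLinearGroup (Fin 2) S, act (f A) a = a := by
    intro A
    refine Matrix.SL2.transvection_induction (fun A => act (f A) a = a) ?_ ?_ A
    · intro i j hij b
      fin_cases i <;> fin_cases j
      · exact absurd rfl hij
      · exact hu1 b a hau
      · exact hw1 b a haw'
      · exact absurd rfl hij
    · intro A B hA hB
      rw [map_mul, act_mul, hB, hA]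
  intro x
  have h6 := hall (φ.symm x)
  rw [hf] at h6
  simpa using h6

/-- **Subgroups `SU_2(q)` of `SU_3(q)` are stabilisers of unit vectors.** -/
theorem exists_St (hF : Fintype.card F = q ^ 2) (hq : 4 ≤ q) {A : Subgroup (SU 3 F q)}
    (e : SU 2 F q ≃* A) : ∃ a, hermForm 3 F q a a = 1 ∧ A = St a := by
  have hinj : Function.Injective (A.subtype.comp e.toMonoidHom) :=
    A.subtype_injective.comp e.injective
  obtain ⟨a, ha, hfix⟩ : ∃ a, hermForm 3 F q a a = 1 ∧
      ∀ x, act ((A.subtype.comp e.toMonoidHom) x) a = a := by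
    by_cases h2 : (2 : F) = 0
    · exact exists_fix_even hF h2 _ hinj
    · exact exists_fix_odd hF hq h2 _ hinj
  refine ⟨a, ha, ?_⟩
  have hle : A ≤ St a := by
    intro g hg
    have := hfix (e.symm ⟨g, hg⟩)
    rw [mem_St]
    simpa using this
  apply Subgroup.eq_of_le_of_card_ge hle
  rw [card_St hF ha, Nat.card_congr e.toEquiv]

/-- The two unit vectors are orthogonal. -/
theorem orth_of_comm (hF : Fintype.card F = q ^ 2) {a b : Fin 3 → F}
    (ha : hermForm 3 F q a a = 1) (hb : hermForm 3 F q b b = 1)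
    (htop : St (q := q) a ⊔ St b = ⊤) {d d' : SU 3 F q} (hd : d ∈ St a) (hd' : d' ∈ St b)
    (hd1 : d ≠ 1) (hd'1 : d' ≠ 1) (hdq : d ^ (q + 1) = 1) (hd'q : d' ^ (q + 1) = 1)
    (hcomm : d * d' = d' * d) : hermForm 3 F q b a = 0 := by
  -- `d b` is proportional to `b`
  have h1 : act d' (act d b) = act d b := by
    rw [← act_mul, ← hcomm, act_mul, show act d' b = b from hd']
  obtain ⟨δ, hδ⟩ := fix_prop hF hb hd'q hd'1 hd' h1
  by_contra hne
  have h2 : δ = 1 := by
    have h3 : hermForm 3 F q (act d b) (act d a) = hermForm 3 F q b a := act_form d b a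
    rw [show act d a = a from hd, hδ, hermForm_smul_left] at h3
    have h4 : (δ - 1) * hermForm 3 F q b a = 0 := by linear_combination h3
    rcases mul_eq_zero.1 h4 with h | h
    · exact sub_eq_zero.1 h
    · exact absurd h hne
  rw [h2, one_smul] at hδ
  obtain ⟨γ, hγ⟩ := fix_prop hF ha hdq hd1 hd hδ
  have hγ0 : γ ≠ 0 := by
    rintro rfl
    rw [zero_smul] at hγ
    rw [hγ, hermForm_zero_left] at hb
    exact zero_ne_one hb
  have hSt : St (q := q) b = St a := by
    ext g
    rw [mem_St, mem_St, hγ, act_smul]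
    constructor
    · intro h; exact smul_right_injective _ hγ0 h
    · intro h; rw [h]
  rw [hSt, sup_idem] at htop
  -- `SU_3` does not fix `a`
  have haU : Un q ⊤ a := ⟨Submodule.mem_top, ha⟩
  have hfin : finrank F (⊤ : Submodule F (Fin 3 → F)) = 3 := by simp
  have h5 := finrank_pp hF haU
  obtain ⟨c, hc⟩ := exists_un hF (nd_pp hF (nd_top (n := 3) hF) haU) (by omega)
  have hca := ((mem_pp hF).1 hc.1).2
  obtain ⟨g, hg⟩ := exists_move1 hF ha 0 1 (by decide)
  obtain ⟨g', hg'⟩ := exists_move1 hF hc.2 0 1 (by decide)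
  have h6 : g' * g⁻¹ ∈ St (q := q) a := by rw [htop]; trivial
  rw [mem_St, act_mul, ← hg, act_inv_act, hg', hg] at h6
  rw [h6, ha] at hca
  exact one_ne_zero hca

/-- **Standard pairs from commuting tori.** -/
theorem std_pair {G : Type*} [Group G] (hF : Fintype.card F = q ^ 2) (hq : 4 ≤ q)
    {U1 U2 : Subgroup G} (e1 : SU 2 F q ≃* U1) (e2 : SU 2 F q ≃* U2)
    (ε : ↥(U1 ⊔ U2) ≃* SU 3 F q) {d1 d2 : G} (hd1 : d1 ∈ U1) (hd2 : d2 ∈ U2)
    (h11 : d1 ≠ 1) (h21 : d2 ≠ 1) (h1q : d1 ^ (q + 1) = 1) (h2q : d2 ^ (q + 1) = 1)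
    (hcomm : d1 * d2 = d2 * d1) : IsStandardUnitaryPair (U1 ⊔ U2) U1 U2 F q := by
  -- the images in `SU_3`
  have himg : ∀ (U : Subgroup G) (hU : U ≤ U1 ⊔ U2) (e : SU 2 F q ≃* U),
      ∃ a, hermForm 3 F q a a = 1 ∧ ∀ x : ↥(U1 ⊔ U2), (x : G) ∈ U ↔ ε x ∈ St (q := q) a := by
    intro U hU e
    have e' : SU 2 F q ≃* (ε.toMonoidHom.comp (Subgroup.inclusion hU)).range :=
      e.trans (MonoidHom.ofInjective (f := ε.toMonoidHom.comp (Subgroup.inclusion hU))
        (ε.injective.comp (Subgroup.inclusion_injective hU)))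
    obtain ⟨a, ha, hA⟩ := exists_St hF hq e'
    refine ⟨a, ha, fun x => ?_⟩
    rw [← hA]
    constructor
    · intro hx
      exact ⟨⟨x, hx⟩, rfl⟩
    · rintro ⟨y, hy⟩
      have : Subgroup.inclusion hU y = x := ε.injective hy
      rw [← this]
      exact y.2
  obtain ⟨a, ha, hA⟩ := himg U1 le_sup_left e1
  obtain ⟨b, hb, hB⟩ := himg U2 le_sup_right e2
  have hd1' : d1 ∈ U1 ⊔ U2 := Subgroup.mem_sup_left hd1
  have hd2' : d2 ∈ U1 ⊔ U2 := Subgroup.mem_sup_right hd2
  have htop : St (q := q) a ⊔ St b = ⊤ := by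
    have h1 : (St (q := q) a) = (U1.subgroupOf (U1 ⊔ U2)).map ε.toMonoidHom := by
      ext g
      constructor
      · intro hg
        exact ⟨ε.symm g, (hA _).2 (by rw [MulEquiv.apply_symm_apply]; exact hg), by simp⟩
      · rintro ⟨x, hx, rfl⟩
        exact (hA x).1 hx
    have h2 : (St (q := q) b) = (U2.subgroupOf (U1 ⊔ U2)).map ε.toMonoidHom := by
      ext g
      constructor
      · intro hg
        exact ⟨ε.symm g, (hB _).2 (by rw [MulEquiv.apply_symm_apply]; exact hg), by simp⟩
      · rintro ⟨x, hx, rfl⟩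
        exact (hB x).1 hx
    rw [h1, h2, ← Subgroup.map_sup, ← Subgroup.subgroupOf_sup le_sup_left le_sup_right,
      Subgroup.subgroupOf_self, ← MonoidHom.range_eq_map]
    exact MonoidHom.range_eq_top.2 ε.surjective
  have hba := orth_of_comm hF ha hb htop (d := ε ⟨d1, hd1'⟩) (d' := ε ⟨d2, hd2'⟩)
    ((hA _).1 hd1) ((hB _).1 hd2)
    (by
      intro h
      apply h11
      have : (⟨d1, hd1'⟩ : ↥(U1 ⊔ U2)) = 1 := ε.injective (by rw [h, map_one])
      exact congrArg Subtype.val this)
    (by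
      intro h
      apply h21
      have : (⟨d2, hd2'⟩ : ↥(U1 ⊔ U2)) = 1 := ε.injective (by rw [h, map_one])
      exact congrArg Subtype.val this)
    (by
      rw [← map_pow]
      have : (⟨d1, hd1'⟩ : ↥(U1 ⊔ U2)) ^ (q + 1) = 1 := Subtype.ext h1q
      rw [this, map_one])
    (by
      rw [← map_pow]
      have : (⟨d2, hd2'⟩ : ↥(U1 ⊔ U2)) ^ (q + 1) = 1 := Subtype.ext h2q
      rw [this, map_one])
    (by
      rw [← map_mul, ← map_mul]
      congr 1
      exact Subtype.ext hcomm)
  obtain ⟨g, hg2, hg0⟩ := exists_move2 hF ha hb (form_comm hF hba) 2 0 1 (by decide) (by decide)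
    (by decide)
  left
  refine ⟨(MulAut.conj g).trans ε.symm, ?_, ?_⟩
  · rw [suBlock_eq hF (S := {0, 1}) (by intro k; simp)]
    ext x
    constructor
    · rintro ⟨y, hy, rfl⟩
      have h1 := (HH_conj_St hF hg2 (S := {0, 1}) (by intro k; fin_cases k <;> simp) y).1 hy
      change ((ε.symm (g * y * g⁻¹) : ↥(U1 ⊔ U2)) : G) ∈ U1
      rw [hA, MulEquiv.apply_symm_apply]
      exact h1
    · intro hx
      have h1 := (hA ⟨x, Subgroup.mem_sup_left hx⟩).1 hx
      refine ⟨g⁻¹ * ε ⟨x, Subgroup.mem_sup_left hx⟩ * g, ?_, ?_⟩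
      · rw [SetLike.mem_coe, HH_conj_St hF hg2 (S := {0, 1}) (by intro k; fin_cases k <;> simp)]
        have : g * (g⁻¹ * ε ⟨x, Subgroup.mem_sup_left hx⟩ * g) * g⁻¹ =
            ε ⟨x, Subgroup.mem_sup_left hx⟩ := by group
        rw [this]; exact h1
      · change ((ε.symm (g * (g⁻¹ * ε ⟨x, Subgroup.mem_sup_left hx⟩ * g) * g⁻¹) :
          ↥(U1 ⊔ U2)) : G) = x
        have : g * (g⁻¹ * ε ⟨x, Subgroup.mem_sup_left hx⟩ * g) * g⁻¹ =
            ε ⟨x, Subgroup.mem_sup_left hx⟩ := by group
        rw [this, MulEquiv.symm_apply_apply]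
  · rw [suBlock_eq hF (S := {1, 2}) (by intro k; simp)]
    ext x
    constructor
    · rintro ⟨y, hy, rfl⟩
      have h1 := (HH_conj_St hF hg0 (S := {1, 2}) (by intro k; fin_cases k <;> simp) y).1 hy
      change ((ε.symm (g * y * g⁻¹) : ↥(U1 ⊔ U2)) : G) ∈ U2
      rw [hB, MulEquiv.apply_symm_apply]
      exact h1
    · intro hx
      have h1 := (hB ⟨x, Subgroup.mem_sup_right hx⟩).1 hx
      refine ⟨g⁻¹ * ε ⟨x, Subgroup.mem_sup_right hx⟩ * g, ?_, ?_⟩
      · rw [SetLike.mem_coe, HH_conj_St hF hg0 (S := {1, 2}) (by intro k; fin_cases k <;> simp)]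
        have : g * (g⁻¹ * ε ⟨x, Subgroup.mem_sup_right hx⟩ * g) * g⁻¹ =
            ε ⟨x, Subgroup.mem_sup_right hx⟩ := by group
        rw [this]; exact h1
      · change ((ε.symm (g * (g⁻¹ * ε ⟨x, Subgroup.mem_sup_right hx⟩ * g) * g⁻¹) :
          ↥(U1 ⊔ U2)) : G) = x
        have : g * (g⁻¹ * ε ⟨x, Subgroup.mem_sup_right hx⟩ * g) * g⁻¹ =
            ε ⟨x, Subgroup.mem_sup_right hx⟩ := by group
        rw [this, MulEquiv.symm_apply_apply]

end Cfsg.Agent.Phan
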